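import Mathlib
import Cfsg.Agent.Lib.Block.Span
import Cfsg.Agent.Lib.Char.Integral

/-! The lattice inequality of the principal block: if `c n ≡ l n` modulo `q = |G|_p`, the virtual
character `∑_{χ ∈ B₀} c(χ 1) χ` takes values in `q ℤ`, hence `q |c 1| ≤ ∑ c(χ 1)²`. -/

set_option autoImplicit false

namespace CfsgLib.B0Lat

open Cfsg CfsgLib.Char CfsgLib.Block
open scoped ComplexConjugate

variable {G : Type*} [Group G] [Finite G] {p : ℕ} {M : Ideal AlgInt}

open Classical in
/-- coefficients depending on the degree only, supported on the principal block -/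
noncomputable def cf (M : Ideal AlgInt) (c : ℕ → ℤ) (χ : IrrCharacter G) : ℤ :=
  if χ ∈ principalBlock M G then c (charDegree (χ : G → ℂ)) else 0

/-- the virtual character with these coefficients -/
noncomputable def Th (M : Ideal AlgInt) (G : Type*) [Group G] [Finite G] (c : ℕ → ℤ) : G → ℂ :=
  ∑ χ : IrrCharacter G, (cf M c χ : ℂ) • (χ : G → ℂ)

theorem pw_mem {k : ℕ} (hk : k.Coprime (Nat.card G)) (χ : IrrCharacter G) :
    (⟨_, isIrr_pow_of_coprime χ.2 hk⟩ : IrrCharacter G) ∈ principalBlock M G ↔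
      χ ∈ principalBlock M G := by
  have e : ∀ g : G, Subgroup.centralizer ({g} : Set G) = Subgroup.centralizer {g ^ k} := fun g => by
    rw [← Subgroup.centralizer_closure {g}, ← Subgroup.centralizer_closure {g ^ k},
      ← Subgroup.zpowers_eq_closure, ← Subgroup.zpowers_eq_closure]
    congr 2
    exact le_antisymm (Subgroup.zpowers_le.2 (mem_zpowers_pow_iff.2 (hk.coprime_dvd_right
      (orderOf_dvd_natCard g)))) (Subgroup.zpowers_le.2 (Subgroup.npow_mem_zpowers _ _))
  rw [mem_principalBlock_iff, mem_principalBlock_iff]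
  refine ⟨fun h g => ?_, fun h g => ?_⟩
  · obtain ⟨g, rfl⟩ := (powCoprime hk.symm).surjective g
    have := h g
    simpa [centralChar, e g] using this
  · simpa [centralChar, e g] using h (g ^ k)

theorem exists_int (c : ℕ → ℤ) (g : G) : ∃ n : ℤ, Th M G c g = n := by
  classical
  have := Fintype.ofFinite G
  refine exists_int_of_pow_eq (isGenChar_sum_int (cf M c)) g fun k hk => ?_
  have hi : Function.Injective fun χ : IrrCharacter G =>
      (⟨_, isIrr_pow_of_coprime χ.2 hk⟩ : IrrCharacter G) := fun χ ψ h => Subtype.ext (funext fun g => by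
    obtain ⟨g, rfl⟩ := (powCoprime hk.symm).surjective g
    exact congrFun (congrArg Subtype.val h) g)
  simp only [Finset.sum_apply, Pi.smul_apply, smul_eq_mul]
  refine Fintype.sum_bijective _ (Finite.injective_iff_bijective.1 hi) _ _ fun χ => ?_
  congr 2
  unfold cf
  rw [pw_mem hk]
  congr 2
  refine (charDegree_eq_of_eq ?_).symm
  simp only [one_pow]
  exact (charDegree_eq (irr_isCharacter χ)).symm

theorem dvd_reg (hM : IsPModular p M) (g : G) {n : ℤ} (hn : Th M G (fun d => d) g = n) :
    (p : ℤ) ^ (Nat.card G).factorization p ∣ n := by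
  classical
  rcases eq_or_ne n 0 with rfl | h0
  · exact dvd_zero _
  have h1 := lr_blockCoeff hM (isPBlock_principalBlock (M := M) (G := G)) g⁻¹
  have h2 : blockCoeff (principalBlock M G) g⁻¹ = (n : ℂ) / Nat.card G := by
    rw [blockCoeff_eq, ← hn, div_eq_inv_mul]
    congr 1
    simp only [Th, Finset.sum_apply, Pi.smul_apply, smul_eq_mul, cf]
    refine Finset.sum_congr rfl fun χ _ => ?_
    split_ifs
    · rw [char_inv (irr_isCharacter χ), Complex.conj_conj, Int.cast_natCast,
        charDegree_eq (irr_isCharacter χ)]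
    · simp
  rw [h2] at h1
  have h3 : MemLocalRing M ((n.natAbs : ℂ) / Nat.card G) := by
    rcases Int.natAbs_eq n with h | h
    · rwa [h, Int.cast_natCast] at h1
    · have := lr_neg h1
      rwa [h, Int.cast_neg, Int.cast_natCast, neg_div, neg_neg] at this
  rw [lr_div_nat_iff hM (Int.natAbs_ne_zero.2 h0) Nat.card_pos.ne',
    ← hM.1.pow_dvd_iff_le_factorization (Int.natAbs_ne_zero.2 h0)] at h3
  exact_mod_cast Int.natCast_dvd.2 h3

theorem exists_val (hM : IsPModular p M) {c : ℕ → ℤ} {l : ℤ}
    (hc : ∀ n : ℕ, (p : ℤ) ^ (Nat.card G).factorization p ∣ c n - l * n) (g : G) :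
    ∃ n : ℤ, Th M G c g = ((p : ℤ) ^ (Nat.card G).factorization p * n : ℤ) := by
  choose d hd using hc
  obtain ⟨n, hn⟩ := exists_int (M := M) (fun d => d) g
  obtain ⟨m, hm⟩ := exists_int (M := M) d g
  obtain ⟨r, rfl⟩ := dvd_reg hM g hn
  refine ⟨l * r + m, ?_⟩
  have : Th M G c g = l * Th M G (fun d => d) g +
      ((p : ℤ) ^ (Nat.card G).factorization p : ℤ) * Th M G d g := by
    simp only [Th, Finset.sum_apply, Pi.smul_apply, smul_eq_mul, Finset.mul_sum, ← Finset.sum_add_distrib, cf]
    refine Finset.sum_congr rfl fun χ _ => ?_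
    split_ifs
    · rw [sub_eq_iff_eq_add.1 (hd _)]; push_cast; ring
    · simp
  rw [this, hn, hm]; push_cast; ring

theorem key (hM : IsPModular p M) {c : ℕ → ℤ} {l : ℤ}
    (hc : ∀ n : ℕ, (p : ℤ) ^ (Nat.card G).factorization p ∣ c n - l * n) :
    (p : ℤ) ^ (Nat.card G).factorization p * |c 1| ≤ ∑ χ : IrrCharacter G, cf M c χ ^ 2 := by
  classical
  have := Fintype.ofFinite G
  set q : ℤ := (p : ℤ) ^ (Nat.card G).factorization p with hq
  have hq0 : 0 ≤ q := by positivity
  choose f hf using exists_val hM hc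
  have h1 : ∑ g, q * f g = Nat.card G * c 1 := by
    have := card_mul_classInner (Th M G c) (irrOne G : G → ℂ)
    rw [Th, classInner_sum_irr, cf, if_pos (irrOne_mem_principalBlock hM),
      charDegree_eq_of_eq (n := 1) (by simp [irrOne_coe])] at this
    simp only [irrOne_coe, map_one, mul_one] at this
    have h' : ∀ g, (∑ χ : IrrCharacter G, (cf M c χ : ℂ) • (χ : G → ℂ)) g = ((q * f g : ℤ) : ℂ) := hf
    simp only [h'] at this
    exact_mod_cast this.symm
  have h2 : ∑ g, (q * f g) ^ 2 = Nat.card G * ∑ χ : IrrCharacter G, cf M c χ ^ 2 := by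
    have := card_mul_classInner (Th M G c) (Th M G c)
    rw [show classInner (Th M G c) (Th M G c) = ∑ χ : IrrCharacter G, (cf M c χ : ℂ) ^ 2 by
      nth_rewrite 2 [Th]
      simp only [classInner_sum_right, classInner_smul_right, Th, classInner_sum_irr, map_intCast, sq]] at this
    simp only [hf, map_intCast, ← sq] at this
    exact_mod_cast this.symm
  have h3 : q * |∑ g, q * f g| ≤ ∑ g, (q * f g) ^ 2 := by
    refine (mul_le_mul_of_nonneg_left (Finset.abs_sum_le_sum_abs _ _) hq0).trans ?_
    rw [Finset.mul_sum]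
    refine Finset.sum_le_sum fun g _ => ?_
    rw [abs_mul, abs_of_nonneg hq0, mul_pow, ← mul_assoc, ← sq, ← sq_abs (f g)]
    exact mul_le_mul_of_nonneg_left (Int.le_self_sq _) (sq_nonneg _)
  rw [h1, h2, abs_mul, Nat.abs_cast, mul_left_comm] at h3
  exact le_of_mul_le_mul_left h3 (by exact_mod_cast Nat.card_pos)

end CfsgLib.B0Lat
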