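import Mathlib

/-! A lattice `Λ ≤ ℤ^ι` whose `i₀`-coordinates cover all residues modulo `q = p ^ a` (by reduced vectors)
and in which `q |c i₀| ≤ ∑ (c i)²` holds throughout has bounded `a`. -/

set_option autoImplicit false

namespace CfsgLib.B0Lat

variable {ι : Type*} [Fintype ι] {Λ : AddSubgroup (ι → ℤ)} {i0 : ι} {q : ℤ} {k : ℕ}

/-- short vectors -/
def Sh (Λ : AddSubgroup (ι → ℤ)) (q : ℤ) (T : ℕ) : Set (ι → ℚ) :=
  {v | ∃ c ∈ Λ, (∀ i, (T : ℤ) * |c i| ≤ q) ∧ v = fun i => (c i : ℚ)}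

theorem small (hq : 0 < q) (hk : Fintype.card ι ≤ k) (H : ∀ c ∈ Λ, q * |c i0| ≤ ∑ i, c i ^ 2)
    {T K : ℚ} (hT : 0 ≤ T) {z : ι → ℤ} (hz : z ∈ Λ) (h : ∀ i, T * |(z i : ℚ)| ≤ K * q) :
    T ^ 2 * |(z i0 : ℚ)| ≤ k * K ^ 2 * q := by
  have h1 : (q : ℚ) * |(z i0 : ℚ)| ≤ ∑ i, (z i : ℚ) ^ 2 := by exact_mod_cast H z hz
  have hq' : (0 : ℚ) < q := by exact_mod_cast hq
  have h2 : T ^ 2 * ∑ i, (z i : ℚ) ^ 2 ≤ k * (K * q) ^ 2 := by
    rw [Finset.mul_sum]
    refine (Finset.sum_le_card_nsmul _ _ ((K * q) ^ 2) fun i _ => ?_).trans ?_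
    · rw [← sq_abs (z i : ℚ), ← mul_pow]
      exact pow_le_pow_left₀ (by positivity) (h i) 2
    · rw [nsmul_eq_mul, Finset.card_univ]
      exact mul_le_mul_of_nonneg_right (by exact_mod_cast hk) (sq_nonneg _)
  refine le_of_mul_le_mul_left ?_ hq'
  have := mul_le_mul_of_nonneg_left h1 (sq_nonneg T)
  nlinarith

theorem step (hq : 0 < q) (hk : Fintype.card ι ≤ k) (H : ∀ c ∈ Λ, q * |c i0| ≤ ∑ i, c i ^ 2)
    {T : ℕ} (hT : 1 ≤ T) {y : ι → ℤ} (hy : y ∈ Λ) (hyq : ∀ i, |y i| ≤ q)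
    (hs : (fun i => (y i : ℚ)) ∈ Submodule.span ℚ (Sh Λ q T)) :
    (T : ℤ) * |y i0| ≤ 2 * k * (2 * k + 1) ^ 2 * q := by
  obtain ⟨f, hf, hsp, -⟩ := Submodule.exists_fun_fin_finrank_span_eq ℚ (Sh Λ q T)
  have hr : Module.finrank ℚ (Submodule.span ℚ (Sh Λ q T)) ≤ k :=
    (Submodule.finrank_le _).trans (by simpa using hk)
  rw [← hsp, Submodule.mem_span_range_iff_exists_fun] at hs
  obtain ⟨a, ha⟩ := hs
  choose v hv hvT hfv using hf
  have hq' : (0 : ℚ) < q := by exact_mod_cast hq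
  have hT' : (1 : ℚ) ≤ T := by exact_mod_cast hT
  let w : ℕ → ι → ℤ := fun m => ∑ l, ⌊m * a l / T⌋ • v l
  have hw : ∀ m, w m ∈ Λ := fun m => Λ.sum_mem fun l _ => Λ.zsmul_mem (hv l) _
  have he : ∀ (m : ℕ) i, T * |m * (y i : ℚ) / T - w m i| ≤ k * q := fun m i => by
    have e : m * (y i : ℚ) / T - w m i = ∑ l, Int.fract (m * a l / T) * v l i := by
      rw [← congrFun ha i]
      simp only [w, Finset.sum_apply, Pi.smul_apply, smul_eq_mul, hfv, Int.cast_sum, Int.cast_mul,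
        Finset.mul_sum, Finset.sum_div, ← Finset.sum_sub_distrib, Int.fract]
      exact Finset.sum_congr rfl fun l _ => by ring
    rw [e]
    refine (mul_le_mul_of_nonneg_left (Finset.abs_sum_le_sum_abs _ _) (by positivity)).trans ?_
    rw [Finset.mul_sum]
    refine (Finset.sum_le_card_nsmul _ _ (q : ℚ) fun l _ => ?_).trans ?_
    · have h1 : (T : ℚ) * |(v l i : ℚ)| ≤ q := by exact_mod_cast hvT l i
      rw [abs_mul, abs_of_nonneg (Int.fract_nonneg _), mul_left_comm]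
      exact (mul_le_of_le_one_left (by positivity) (Int.fract_lt_one _).le).trans h1
    · rw [nsmul_eq_mul, Finset.card_univ, Fintype.card_fin]
      exact mul_le_mul_of_nonneg_right (by exact_mod_cast hr) hq'.le
  have hk0 : (0 : ℚ) ≤ k * q := by positivity
  have h1 : ∀ m, (T : ℚ) ^ 2 * |((w (m + 1) - w m) i0 : ℚ)| ≤ k * (2 * k + 1) ^ 2 * q := fun m => by
    refine small hq hk H (by positivity) (Λ.sub_mem (hw _) (hw _)) fun i => ?_
    have e : (((w (m + 1) - w m) i : ℤ) : ℚ) = (y i : ℚ) / T + ((m * (y i : ℚ) / T - w m i) -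
        ((m + 1 : ℕ) * (y i : ℚ) / T - w (m + 1) i)) := by
      push_cast [Pi.sub_apply]; ring
    have e2 : (T : ℚ) * |(y i : ℚ) / T| ≤ q := by
      rw [abs_div, Nat.abs_cast, mul_div_cancel₀ _ (by positivity)]; exact_mod_cast hyq i
    have e3 := (abs_add_le _ _).trans (add_le_add_right (abs_sub (m * (y i : ℚ) / T - w m i)
        ((m + 1 : ℕ) * (y i : ℚ) / T - w (m + 1) i)) |(y i : ℚ) / T|)
    rw [e]
    have := mul_le_mul_of_nonneg_left e3 (show (0 : ℚ) ≤ T by positivity)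
    have := he m i
    have := he (m + 1) i
    linarith
  have h2 : (T : ℚ) ^ 2 * |((y - w T) i0 : ℚ)| ≤ k * (2 * k + 1) ^ 2 * q := by
    refine small hq hk H (by positivity) (Λ.sub_mem hy (hw _)) fun i => ?_
    have := he T i
    rw [mul_div_cancel_left₀ _ (by positivity)] at this
    push_cast [Pi.sub_apply]
    linarith
  have h3 : (y i0 : ℚ) = ((y - w T) i0 : ℚ) + ∑ m ∈ Finset.range T, ((w (m + 1) - w m) i0 : ℚ) := by
    simp only [Pi.sub_apply, Int.cast_sub]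
    rw [Finset.sum_range_sub (fun m => (w m i0 : ℚ))]
    simp [w]
  have h4 : (T : ℚ) ^ 2 * |(y i0 : ℚ)| ≤ (1 + T) * (k * (2 * k + 1) ^ 2 * q) := by
    rw [h3]
    refine (mul_le_mul_of_nonneg_left ((abs_add_le _ _).trans
      (add_le_add_right (Finset.abs_sum_le_sum_abs _ _) _)) (by positivity)).trans ?_
    rw [mul_add, Finset.mul_sum, add_mul, one_mul]
    refine add_le_add h2 ((Finset.sum_le_card_nsmul _ _ _ fun m _ => h1 m).trans ?_)
    rw [nsmul_eq_mul, Finset.card_range]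
  have h5 : (T : ℚ) * |(y i0 : ℚ)| ≤ 2 * k * (2 * k + 1) ^ 2 * q := by
    refine le_of_mul_le_mul_left ?_ (show (0 : ℚ) < T by positivity)
    have : (0 : ℚ) ≤ k * (2 * k + 1) ^ 2 * q := by positivity
    nlinarith
  exact_mod_cast h5

theorem dirichlet (hq : 0 < q) (hk : Fintype.card ι ≤ k)
    (hΛ : ∀ l : ℤ, ∃ c ∈ Λ, q ∣ c i0 - l ∧ ∀ i, 0 ≤ c i ∧ c i < q) {T : ℕ} (hT : 1 ≤ T) (l : ℤ) :
    ∃ m : ℕ, 0 < m ∧ m ≤ T ^ k ∧ ∃ y ∈ Λ, q ∣ y i0 - m * l ∧ ∀ i, (T : ℤ) * |y i| ≤ q := by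
  classical
  choose c hc hc0 hcq using hΛ
  have hT' : (0 : ℤ) < T := by exact_mod_cast hT
  let F : Fin (T ^ k + 1) → ι → Fin T := fun m i => ⟨(T * c (m * l) i / q).toNat, by
    rw [Int.toNat_lt (Int.ediv_nonneg (mul_nonneg hT'.le (hcq _ i).1) hq.le), Int.ediv_lt_iff_lt_mul hq]
    exact mul_lt_mul_of_pos_left (hcq _ i).2 hT'⟩
  have key : ∀ m m' : Fin (T ^ k + 1), m < m' → F m = F m' → ∃ m : ℕ, 0 < m ∧ m ≤ T ^ k ∧
      ∃ y ∈ Λ, q ∣ y i0 - m * l ∧ ∀ i, (T : ℤ) * |y i| ≤ q := fun m m' hm h => by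
    have hm' : (m : ℕ) < m' := hm
    refine ⟨m' - m, by omega, by omega, c (m' * l) - c (m * l), Λ.sub_mem (hc _) (hc _), ?_, fun i => ?_⟩
    · have := dvd_sub (hc0 (m' * l)) (hc0 (m * l))
      refine this.trans (dvd_of_eq ?_)
      rw [Pi.sub_apply, Nat.cast_sub hm'.le]; ring
    · have h1 : (T * c (m * l) i / q).toNat = (T * c (m' * l) i / q).toNat :=
        congrArg Fin.val (congrFun h i)
      have h2 : T * c (m * l) i / q = T * c (m' * l) i / q := by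
        have := Int.ediv_nonneg (mul_nonneg hT'.le (hcq (m * l) i).1) hq.le
        have := Int.ediv_nonneg (mul_nonneg hT'.le (hcq (m' * l) i).1) hq.le
        omega
      have a1 := Int.mul_ediv_add_emod (T * c (m * l) i) q
      have a2 := Int.mul_ediv_add_emod (T * c (m' * l) i) q
      have b1 := Int.emod_nonneg (T * c (m * l) i) hq.ne'
      have b2 := Int.emod_nonneg (T * c (m' * l) i) hq.ne'
      have c1 := Int.emod_lt_of_pos (T * c (m * l) i) hq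
      have c2 := Int.emod_lt_of_pos (T * c (m' * l) i) hq
      rw [h2] at a1
      rw [← abs_of_pos hT', ← abs_mul, abs_le, Pi.sub_apply, mul_sub]
      constructor <;> linarith
  obtain ⟨m, m', hne, h⟩ := Fintype.exists_ne_map_eq_of_card_lt F (by
    rw [Fintype.card_fun, Fintype.card_fin, Fintype.card_fin]
    exact Nat.lt_succ_of_le (Nat.pow_le_pow_right hT hk))
  rcases lt_or_gt_of_ne hne with h1 | h1
  · exact key m m' h1 h
  · exact key m' m h1 h.symm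

/-- the scales -/
def sc (p k : ℕ) : ℕ → ℕ
  | 0 => 1
  | j + 1 => sc p k j + 2 * k * (2 * k + 1) ^ 2 * p ^ (sc p k j ^ k) + 1

theorem sc_mono (p k : ℕ) : Monotone (sc p k) :=
  monotone_nat_of_le_succ fun j => by rw [sc]; omega

theorem sc_pos (p k j : ℕ) : 1 ≤ sc p k j := sc_mono p k (Nat.zero_le j)

theorem lat {p a : ℕ} (hp : 1 < p) (hk : Fintype.card ι ≤ k)
    (hΛ : ∀ l : ℤ, ∃ c ∈ Λ, (p : ℤ) ^ a ∣ c i0 - l ∧ ∀ i, 0 ≤ c i ∧ c i < (p : ℤ) ^ a)
    (H : ∀ c ∈ Λ, (p : ℤ) ^ a * |c i0| ≤ ∑ i, c i ^ 2) : a ≤ sc p k k ^ k := by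
  by_contra ha
  have hp0 : (0 : ℤ) < p := by omega
  have hq : (0 : ℤ) < (p : ℤ) ^ a := by positivity
  let W : ℕ → Submodule ℚ (ι → ℚ) := fun j => Submodule.span ℚ (Sh Λ ((p : ℤ) ^ a) (sc p k j))
  have hW : ∀ j, W (j + 1) ≤ W j := fun j => Submodule.span_mono fun v ⟨c, h1, h2, h3⟩ =>
    ⟨c, h1, fun i => (mul_le_mul_of_nonneg_right (by exact_mod_cast sc_mono p k j.le_succ)
      (abs_nonneg _)).trans (h2 i), h3⟩
  obtain ⟨j, hj, hWj⟩ : ∃ j ≤ k, W (j + 1) = W j := by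
    by_contra hn
    push Not at hn
    have : ∀ j ≤ k + 1, Module.finrank ℚ (W j) + j ≤ k := fun j => by
      induction j with
      | zero => exact fun _ => (Submodule.finrank_le _).trans (by simpa using hk)
      | succ j ih =>
        intro h
        have := ih (by omega)
        have := Submodule.finrank_lt_finrank_of_lt (lt_of_le_of_ne (hW j) (hn j (by omega)))
        omega
    have := this (k + 1) le_rfl
    omega
  set b := sc p k j ^ k with hb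
  have hba : b ≤ a := (Nat.pow_le_pow_left (sc_mono p k hj) k).trans (not_le.1 ha).le
  obtain ⟨d, rfl⟩ := Nat.exists_eq_add_of_le hba
  obtain ⟨m, hm0, hm, y, hy, hy0, hyT⟩ := dirichlet hq hk hΛ (sc_pos p k j) ((p : ℤ) ^ d)
  have h1 := step hq hk H (sc_pos p k (j + 1)) hy (fun i => (le_mul_of_one_le_left (abs_nonneg _)
    (by exact_mod_cast sc_pos p k j)).trans (hyT i))
    (show _ ∈ W (j + 1) from hWj ▸ Submodule.subset_span ⟨y, hy, hyT, rfl⟩)
  obtain ⟨t, ht⟩ := hy0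
  have h2 : y i0 = (p : ℤ) ^ d * (m + p ^ b * t) := by rw [pow_add] at ht; linear_combination ht
  have h3 : (m : ℤ) + p ^ b * t ≠ 0 := fun h => by
    have h4 : ((p ^ b : ℕ) : ℤ) ∣ m := ⟨-t, by push_cast; linear_combination h⟩
    have := Nat.le_of_dvd hm0 (Int.natCast_dvd_natCast.1 h4)
    have := Nat.lt_pow_self (n := b) hp
    omega
  have h4 : (p : ℤ) ^ d ≤ |y i0| := by
    rw [h2, abs_mul, abs_of_pos (by positivity)]
    exact le_mul_of_one_le_right (by positivity) (Int.one_le_abs h3)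
  have h5 := (mul_le_mul_of_nonneg_left h4 (Nat.cast_nonneg _)).trans h1
  rw [sc, ← hb, pow_add] at h5
  push_cast at h5
  have : (0 : ℤ) < (p : ℤ) ^ d := by positivity
  have : (0 : ℤ) ≤ (sc p k j : ℤ) * (p : ℤ) ^ d := by positivity
  nlinarith

end CfsgLib.B0Lat
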